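import Groth.Agent.Sga2lef.H78.LeffOpen
import Groth.Agent.Sga2.ParaExt
import Groth.Agent.S2948

/-!
# `Pic X → Pic U` and `Pic X → Pic Y_n` under the effective Lefschetz condition
-/

set_option autoImplicit false
universe u
open CategoryTheory CategoryTheory.Limits AlgebraicGeometry TopologicalSpace Opposite

namespace Groth.Agent.Sga2lef.H78.LeffMain

open Groth.Agent.Fdesc.LocGen Groth.Agent.Sga2 LeffPic LeffOpen

variable {X : Scheme.{u}}

section Open

variable [IsLocallyNoetherian X] (U : X.Opens)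
  (h : ∀ x : X, x ∉ U → ParaF.IsParafactorialLocalRing (X.presheaf.stalk x))

include h

theorem funExt : Ega4dA.ParaCrit.FunExt X U := by
  have hpair : ParaF.IsParafactorialPair X (ParaExt.compl U) :=
    (S2831.result X (ParaExt.compl U)).mpr fun y hy => h y hy
  have hcompl : (ParaExt.compl U).compl = U := by
    ext x
    simp
  have := Ega4dA.ParaCrit.funExt_of_isParafactorialPair hpair
  rwa [hcompl] at this

/-- Restriction to `U` is bijective on homomorphisms to an invertible module. -/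
theorem restrict_map_bijective (F M : X.Modules) (hM : PicF.IsInvertible M) :
    Function.Bijective (fun φ : F ⟶ M => (Scheme.Modules.restrictFunctor U.ι).map φ) := by
  refine Ega4dA.ParaCrit.restrict_map_bijective U.ι F
    (Ega4dA.ParaCrit.extBij_of_isInvertible hM ?_)
  rw [Scheme.Opens.opensRange_ι]
  exact funExt U h

/-- Isomorphisms of invertible modules over `U` extend. -/
theorem exists_iso_of_restrict (M M' : X.Modules) (hM : PicF.IsInvertible M) (hM' : PicF.IsInvertible M')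
    (e : M.restrict U.ι ≅ M'.restrict U.ι) :
    ∃ φ : M ≅ M', (Scheme.Modules.restrictFunctor U.ι).mapIso φ = e := by
  obtain ⟨f, hf⟩ := (restrict_map_bijective U h M M' hM').2 e.hom
  obtain ⟨g, hg⟩ := (restrict_map_bijective U h M' M hM).2 e.inv
  dsimp only at hf hg
  refine ⟨⟨f, g, ?_, ?_⟩, ?_⟩
  · apply (restrict_map_bijective U h M M hM).1
    dsimp only
    rw [Functor.map_comp, hf, hg, CategoryTheory.Functor.map_id]
    exact e.hom_inv_id
  · apply (restrict_map_bijective U h M' M' hM').1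
    dsimp only
    rw [Functor.map_comp, hf, hg, CategoryTheory.Functor.map_id]
    exact e.inv_hom_id
  · ext1
    exact hf

/-- `Pic X → Pic U` is injective. -/
theorem pic_open_injective : Formal2.PicPullbackInjective U.ι := by
  rintro L hL ⟨e⟩
  obtain ⟨u⟩ := Ega3B.PullTensor.nonempty_pullUnitIso U.ι
  obtain ⟨φ, -⟩ := exists_iso_of_restrict U h L (Coh.structureModule X) hL
    (Ega4dA.ParaCrit.structureModule_isInvertible X)
    ((Scheme.Modules.restrictFunctorIsoPullback U.ι).app _ ≪≫ e ≪≫ u.symm ≪≫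
      (Scheme.Modules.restrictFunctorIsoPullback U.ι).symm.app _)
  exact ⟨φ⟩

/-- `Pic X → Pic U` is surjective. -/
theorem pic_open_surjective : Formal2.PicPullbackSurjective U.ι := by
  intro L hL
  obtain ⟨M, hM, ⟨e⟩⟩ := ParaExt.exists_extension U h L hL
  exact ⟨M, hM, ⟨(Scheme.Modules.restrictFunctorIsoPullback U.ι).symm.app _ ≪≫ e⟩⟩

theorem pic_open : Formal2.PicPullbackInjective U.ι ∧ Formal2.PicPullbackSurjective U.ι :=
  ⟨pic_open_injective U h, pic_open_surjective U h⟩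

end Open

section Thick

/-- The closed subscheme `V(𝓘|_U^{n+1})` of an open neighbourhood `U` of `Y` is `V(𝓘^{n+1})`. -/
theorem exists_comp_eq (𝓘 : X.IdealSheafData) (n : ℕ) (U : X.Opens) :
    ∃ g : ((𝓘.comap U.ι) ^ (n + 1)).subscheme ⟶ (𝓘 ^ (n + 1)).subscheme,
      g ≫ (𝓘 ^ (n + 1)).subschemeι = ((𝓘.comap U.ι) ^ (n + 1)).subschemeι ≫ U.ι := by
  let g : ((𝓘.comap U.ι) ^ (n + 1)).subscheme ⟶ (𝓘 ^ (n + 1)).subscheme :=
    Scheme.IdealSheafData.inclusion (show (𝓘 ^ (n + 1)).comap U.ι ≤ (𝓘.comap U.ι) ^ (n + 1) from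
        (LefOpen.comap_pow 𝓘 U.ι (n + 1)).le) ≫
      ((𝓘 ^ (n + 1)).comapIso U.ι).hom ≫ pullback.snd U.ι (𝓘 ^ (n + 1)).subschemeι
  refine ⟨g, ?_⟩
  simp only [g, Category.assoc]
  rw [← pullback.condition, Scheme.IdealSheafData.comapIso_hom_fst_assoc, ← Category.assoc,
    Scheme.IdealSheafData.inclusion_subschemeι]

/-- Invertible modules on `X` with isomorphic pull-backs to `Y_n` are isomorphic. -/
theorem iso_of_pullback_iso [IsLocallyNoetherian X] (𝓘 : X.IdealSheafData) (p : ℕ) (h : Lef.LefCond X 𝓘)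
    (hH1 : ∀ n : ℕ, p ≤ n → Subsingleton (Coh.HH X (kernel (Lef.quotMap (Lef.pow_succ_le 𝓘 n))) 1))
    (n : ℕ) (hn : p ≤ n) (M M' : X.Modules) (hM : PicF.IsInvertible M) (hM' : PicF.IsInvertible M')
    (e : Nonempty ((Scheme.Modules.pullback (𝓘 ^ (n + 1)).subschemeι).obj M ≅
      (Scheme.Modules.pullback (𝓘 ^ (n + 1)).subschemeι).obj M')) : Nonempty (M ≅ M') := by
  set t := (⊤ : X.Opens).ι with ht
  have hiso : IsIso t := X.topIso.isIso_hom
  obtain ⟨g, hg⟩ := exists_comp_eq 𝓘 n (⊤ : X.Opens)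
  obtain ⟨e1⟩ := PicInj.nonempty_pullback_iso_of_factor (((𝓘.comap t) ^ (n + 1)).subschemeι ≫ t)
    (𝓘 ^ (n + 1)).subschemeι g hg M M' e
  obtain ⟨a⟩ := nonempty_pullback_comp ((𝓘.comap t) ^ (n + 1)).subschemeι t _ rfl M
  obtain ⟨b⟩ := nonempty_pullback_comp ((𝓘.comap t) ^ (n + 1)).subschemeι t _ rfl M'
  obtain ⟨e2⟩ := S2948.result X 𝓘 h p hH1 ⊤ (fun _ _ => trivial) n hn ((Scheme.Modules.pullback t).obj M)
    ((Scheme.Modules.pullback t).obj M') (PicThick.isInvertible_pullback t hM)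
    (PicThick.isInvertible_pullback t hM') ⟨a ≪≫ e1 ≪≫ b.symm⟩
  obtain ⟨c⟩ := PicThick.pullback_pullback_iso (inv t) t (by simp) M
  obtain ⟨d⟩ := PicThick.pullback_pullback_iso (inv t) t (by simp) M'
  exact ⟨c.symm ≪≫ (Scheme.Modules.pullback (inv t)).mapIso e2 ≪≫ d⟩

/-- `Pic X → Pic Y_n` is injective. -/
theorem pic_thick_injective [IsLocallyNoetherian X] (𝓘 : X.IdealSheafData) (p : ℕ) (h : Lef.LefCond X 𝓘)
    (hH1 : ∀ n : ℕ, p ≤ n → Subsingleton (Coh.HH X (kernel (Lef.quotMap (Lef.pow_succ_le 𝓘 n))) 1))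
    (n : ℕ) (hn : p ≤ n) : Formal2.PicPullbackInjective (𝓘 ^ (n + 1)).subschemeι := by
  rintro L hL ⟨e⟩
  obtain ⟨u⟩ := Ega3B.PullTensor.nonempty_pullUnitIso (𝓘 ^ (n + 1)).subschemeι
  exact iso_of_pullback_iso 𝓘 p h hH1 n hn L _ hL (Ega4dA.ParaCrit.structureModule_isInvertible X)
    ⟨e ≪≫ u.symm⟩

theorem pic_thick [IsLocallyNoetherian X] (𝓘 : X.IdealSheafData) (p : ℕ) (h1 : LefX.LeffCond X 𝓘)
    (h2 : ∀ n : ℕ, p ≤ n → ∀ i : ℕ, (i = 1 ∨ i = 2) →
      Subsingleton (Coh.HH X (kernel (Lef.quotMap (Lef.pow_succ_le 𝓘 n))) i))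
    (h3 : ∀ U : X.Opens, (𝓘.support : Set X) ⊆ (U : Set X) → ∀ x : X, x ∉ U →
      ParaF.IsParafactorialLocalRing (X.presheaf.stalk x)) (n : ℕ) (hn : p ≤ n) :
    Formal2.PicPullbackInjective (𝓘 ^ (n + 1)).subschemeι ∧
      Formal2.PicPullbackSurjective (𝓘 ^ (n + 1)).subschemeι := by
  refine ⟨pic_thick_injective 𝓘 p h1.1 (fun m hm => h2 m hm 1 (Or.inl rfl)) n hn, fun N hN => ?_⟩
  obtain ⟨U, L, g, hU, hg, hL, ⟨e⟩⟩ := exists_open_of_leff 𝓘 p h1 (fun m hm => h2 m hm 2 (Or.inr rfl)) n hn N hN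
  obtain ⟨M, hM, ⟨e'⟩⟩ := ParaExt.exists_extension U (h3 U hU) L hL
  obtain ⟨e''⟩ := nonempty_pullback_restrict g hg M
  exact ⟨M, hM, ⟨e''.symm ≪≫ (Scheme.Modules.pullback g).mapIso e' ≪≫ e⟩⟩

end Thick

end Groth.Agent.Sga2lef.H78.LeffMain
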