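import Groth.Agent.Sga2lef.H78.Torsion
import Groth.Agent.Pi1C.LefTors

/-!
# Algebraization of adic systems along a hyperplane section: reduction to a regular section
-/

set_option autoImplicit false
universe u

open CategoryTheory CategoryTheory.Limits AlgebraicGeometry Opposite

namespace Groth.Agent.Sga2lef.H78.TorsApp

open Groth.Agent.VarietyB.ProjGlue Groth.Agent.Pi1C.LefSetup Groth.Agent.Pi1C.LefTors
  Groth.Agent.Pi1C
open KCalc SysPull Torsion

/-- The pull-back of the hyperplane section. -/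
theorem hyper_comap {X X' : Scheme.{u}} {I : Type} [Finite I] (D : CoordData X I)
    (hD : ∀ i, IsAffineOpen (D.U i)) [∀ i, QuasiCompact (D.U i).ι] (k : I) (a : X' ⟶ X)
    (hD' : ∀ i, IsAffineOpen ((LefSetup.pull D a).U i))
    [∀ i, QuasiCompact ((LefSetup.pull D a).U i).ι] :
    (hyper D hD k).comap a = hyper (LefSetup.pull D a) hD' k := by
  refine Scheme.IdealSheafData.ext_of_iSup_eq_top
    (fun i => ⟨(LefSetup.pull D a).U i, hD' i⟩) (LefSetup.pull D a).iSup_U fun i => ?_
  have h1 := Divis.IdealComap.ideal_comap (hyper D hD k) a ⟨D.U i, hD i⟩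
    ⟨a ⁻¹ᵁ D.U i, hD' i⟩ le_rfl
  rw [hyper_ideal, Ideal.map_span, Set.image_singleton, Scheme.Hom.appLE_eq_app] at h1
  rw [hyper_ideal]
  exact h1

theorem alg_of_cast {X : Scheme.{u}} {K K' : X.IdealSheafData} (h : K = K') (S : Sys K)
    (F : X.Modules) (hF : Alg (SysPull.cast h S) F) : Alg S F := by
  subst h
  exact hF

/-- The case of a regular section (to be proved). -/
def RegCore : Prop :=
  ∀ (k : Type u) [Field k] (X : Scheme.{u}) (p : X ⟶ Spec (CommRingCat.of k)) [IsProper p]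
    [IsLocallyNoetherian X] (r : ℕ) (D : CoordData X (Fin (r + 1))) (hD : Good D p),
    (∀ i, D.f i 0 ∈ nonZeroDivisors Γ(X, D.U i)) → LefReduce.DepthHyp 2 X (D.U 0 : Set X) →
      ∀ S : Sys (hyper D hD.affine 0), ∃ F : X.Modules, Coh.IsCoh F ∧ Alg S F

/-- Algebraization of adic systems along a hyperplane section. -/
theorem exists_alg (H : RegCore.{u}) {k : Type u} [Field k] {X : Scheme.{u}}
    (p : X ⟶ Spec (CommRingCat.of k)) [IsProper p] [IsLocallyNoetherian X] {r : ℕ}
    (D : CoordData X (Fin (r + 1))) (hD : Good D p) (hdep : LefReduce.DepthHyp 2 X (D.U 0 : Set X))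
    (S : Sys (hyper D hD.affine 0)) : ∃ F : X.Modules, Coh.IsCoh F ∧ Alg S F := by
  obtain ⟨c, hc0, hc⟩ := tors_inf_hyper D 0 hD.affine (fun i => hD.basic i 0)
  obtain ⟨N, rfl⟩ : ∃ N, c = N + 1 := ⟨c - 1, by omega⟩
  have hX1 : IsLocallyNoetherian (tors D 0).subscheme :=
    LocallyOfFiniteType.isLocallyNoetherian (tors D 0).subschemeι
  have hcm := hyper_comap D hD.affine 0 (tors D 0).subschemeι
    (hD.pull (tors D 0).subschemeι).affine
  obtain ⟨F1, hF1, hA⟩ := H k (tors D 0).subscheme ((tors D 0).subschemeι ≫ p) r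
    (LefSetup.pull D (tors D 0).subschemeι) (hD.pull _)
    (fun i => mem_nonZeroDivisors D 0 hD.affine i) (depthHyp_tors D 0 2 hdep)
    (SysPull.cast hcm (SysPull.pull (tors D 0) S))
  exact exists_glue (tors D 0) (hyper D hD.affine 0) N hc S F1 hF1 (alg_of_cast hcm _ _ hA)

end Groth.Agent.Sga2lef.H78.TorsApp
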