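import Groth.Agent.Sga2lef.H78.TorsApp
import Groth.Agent.Sga2lef.H96.ModSysRec
import Groth.Agent.Pi1C.LefEmb
import Groth.Agent.Ega1.AnnIdealNoeth
import Groth.Prelude.Def_LefX

/-!
# Formal locally free modules along an ample section algebraize (assembly)
-/

set_option autoImplicit false
universe u

open CategoryTheory CategoryTheory.Limits AlgebraicGeometry Opposite

namespace Groth.Agent.Sga2lef.H78.AmpleSec

open Groth.Agent.VarietyB.ProjGlue Groth.Agent.Pi1C.LefSetup Groth.Agent.Pi1C.LefTors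
  Groth.Agent.Pi1C Groth.Agent.FormalB.KQuot Groth.Agent.FormalB.TrKQuot
  Groth.Agent.Sga2lef.H96.ModSysPush
open KCalc SysPull

variable {X : Scheme.{u}} {K : X.IdealSheafData}

/-- The inverse system of a levelwise finite locally free system. -/
noncomputable def sysOf (𝔐 : FSch.ModSys (FSch.completionAlong X K))
    (h𝔐 : LefX.LevelwiseFinLocFree 𝔐) : Sys K where
  G n := pm 𝔐 n
  t n := ptr 𝔐 n
  kq n := isKQuot_ptr 𝔐 n
  qc n := isQCoh_pm 𝔐 n (PerfA.CohSerre.isCoh_of_isFinLocFree (h𝔐 n)).1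
  lf n := by
    have := isIso_counit (K ^ (n + 1)) (𝔐.F n)
    exact Dcoh.FinLocFree.isFinLocFree_of_iso
      (asIso ((Scheme.Modules.pullbackPushforwardAdjunction (K ^ (n + 1)).subschemeι).counit.app
        (𝔐.F n))).symm (h𝔐 n)

/-- The levels of an algebraization are finite locally free. -/
theorem lf_of_alg (S : Sys K) {F : X.Modules} (hF : Coh.IsQCoh F) (h : Alg S F) (n : ℕ) :
    FlatMod.IsFinLocFree ((Scheme.Modules.pullback (FSch.completionToX X K n)).obj F) := by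
  obtain ⟨p, -, hp⟩ := h
  obtain ⟨e, -, -⟩ := (isKQuot_kπ (K ^ (n + 1)) hF).exists_iso (hp n)
  have := isIso_pullback_kπ (K ^ (n + 1)) F
  exact Dcoh.FinLocFree.isFinLocFree_of_iso
    ((Scheme.Modules.pullback (K ^ (n + 1)).subschemeι).mapIso e.symm ≪≫
      (asIso ((Scheme.Modules.pullback (K ^ (n + 1)).subschemeι).map (kπ (K ^ (n + 1)) F))).symm)
    (S.lf n)

/-- Finite locally free levels extend to a neighbourhood (to be proved). -/
def LocFreeNhd : Prop :=
  ∀ (X : Scheme.{u}) [IsLocallyNoetherian X] (𝓘 : X.IdealSheafData) (F : X.Modules)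
    (_ : Coh.IsCoh F) (_ : ∀ n, FlatMod.IsFinLocFree
      ((Scheme.Modules.pullback (FSch.completionToX X 𝓘 n)).obj F)),
    ∃ U : X.Opens, (𝓘.support : Set X) ⊆ (U : Set X) ∧ FlatMod.IsFinLocFree (F.restrict U.ι) ∧
      Nonempty (FSch.completionMod 𝓘 ((Scheme.Modules.pushforward U.ι).obj (F.restrict U.ι)) ≅
        FSch.completionMod 𝓘 F)

theorem main (H1 : TorsApp.RegCore.{u}) (H2 : LocFreeNhd.{u}) (k : Type u) [Field k]
    (X : Scheme.{u}) (f : X ⟶ Spec (CommRingCat.of k)) [IsProper f] (L : X.Modules)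
    (hL : CohB1.IsAmple L) (s : Coh.structureModule X ⟶ L)
    (hd : ∀ x : X, x ∉ ((PicF2.zeroScheme L s).support : Set X) → (2 : WithBot ℕ∞) <
      (LocCoh.depth (X.presheaf.stalk x) (X.presheaf.stalk x) : WithBot ℕ∞) +
        topologicalKrullDim ↥(closure ({x} : Set X)))
    (𝔐 : FSch.ModSys (FSch.completionAlong X (PicF2.zeroScheme L s)))
    (h𝔐 : LefX.LevelwiseFinLocFree 𝔐) :
    ∃ (U : X.Opens) (E : (U : Scheme.{u}).Modules),
      ((PicF2.zeroScheme L s).support : Set X) ⊆ (U : Set X) ∧ FlatMod.IsFinLocFree E ∧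
      Nonempty (FSch.completionMod (PicF2.zeroScheme L s)
        ((Scheme.Modules.pushforward U.ι).obj E) ≅ 𝔐) := by
  have hX : IsLocallyNoetherian X := LocallyOfFiniteType.isLocallyNoetherian f
  have hXc : CompactSpace X := QuasiCompact.compactSpace_of_compactSpace f
  have hXn : IsNoetherian X := {}
  obtain ⟨r, D, hU, hb, hs, h0, hmem⟩ := LefEmb.exists_coordData f hL s
  let zs := PicF2.zeroScheme L s
  let J := hyper D hU 0
  have hJ : J ≤ zs := by
    refine Scheme.IdealSheafData.le_of_iSup_eq_top (fun i => ⟨D.U i, hU i⟩) D.iSup_U fun i => ?_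
    rw [hyper_ideal, Ideal.span_singleton_le_iff_mem]
    exact hmem i
  have hsupp : J.support ≤ zs.support := by
    intro y hy
    by_contra hy'
    have h1 : y ∈ D.U 0 := (h0 y).mpr hy'
    rw [Scheme.IdealSheafData.mem_support_iff_of_mem (U := ⟨D.U 0, hU 0⟩) h1] at hy
    rw [hyper_ideal, D.f_self, Scheme.mem_zeroLocus_iff] at hy
    refine hy 1 (Ideal.mem_span_singleton_self _) ?_
    rw [Scheme.basicOpen_of_isUnit _ isUnit_one]
    exact h1
  obtain ⟨e, he⟩ := Ega1.AnnIdealNoeth.exists_pow_le hsupp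
  have he' : zs ^ (e + 1) ≤ J := (pow_le_pow_of_le_one bot_le le_top (Nat.le_succ e)).trans he
  obtain ⟨F, hF, hA⟩ := TorsApp.exists_alg H1 f D ⟨hU, hb, hs⟩ (fun x hx => hd x ((h0 x).mp hx))
    (Passage.passage he' (sysOf 𝔐 h𝔐))
  have hA' := Passage.alg_of_passage he' (sysOf 𝔐 h𝔐) hJ (Nat.succ_pos e) hA
  obtain ⟨U, hU1, hU2, ⟨e1⟩⟩ := H2 X zs F hF (lf_of_alg _ hF.1 hA')
  obtain ⟨p, hp1, hp2⟩ := hA'
  obtain ⟨e2⟩ := H96.ModSysRec.nonempty_iso_of_isKQuot 𝔐 F hF.1 p hp2 hp1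
  exact ⟨U, F.restrict U.ι, hU1, hU2, ⟨e1 ≪≫ e2⟩⟩

end Groth.Agent.Sga2lef.H78.AmpleSec
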