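import Groth.Agent.Sga2lef.H78.LeffPic

/-!
# Invertible modules on the thickenings `Y_n` come from open neighbourhoods of `Y` under `Leff(X, Y)`
-/

set_option autoImplicit false
universe u
open CategoryTheory CategoryTheory.Limits AlgebraicGeometry TopologicalSpace Opposite

namespace Groth.Agent.Sga2lef.H78.LeffOpen

open Groth.Agent.Fdesc.LocGen Groth.Agent.Sga2 LeffPic

variable {X : Scheme.{u}}

/-- The locus where a module is invertible. -/
def invLocus (M : X.Modules) : X.Opens :=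
  ⟨{x | ∃ (W : X.Opens) (s : Γ(M, W)), x ∈ W ∧ IsGen s}, by
    rw [isOpen_iff_forall_mem_open]
    rintro x ⟨W, s, hx, hs⟩
    exact ⟨W, fun y hy => ⟨W, s, hy, hs⟩, W.2, hx⟩⟩

theorem mem_invLocus (M : X.Modules) (x : X) :
    x ∈ invLocus M ↔ ∃ (W : X.Opens) (s : Γ(M, W)), x ∈ W ∧ IsGen s := Iff.rfl

/-- A module with local generators at the points of `U` is invertible on `U`. -/
theorem isInvertible_restrict (U : X.Opens) (M : X.Modules)
    (h : ∀ x ∈ U, ∃ (V : X.Opens) (e : Γ(M, V)), x ∈ V ∧ IsGen e) : PicF.IsInvertible (M.restrict U.ι) := by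
  rw [isInvertible_iff]
  intro x
  obtain ⟨V, e, hx, he⟩ := h x.1 x.2
  exact ⟨U.ι ⁻¹ᵁ V, ((Scheme.Modules.restrictFunctorIsoPullback U.ι).app M).inv.app _ (pullSec U.ι e), hx,
    (he.pullSec U.ι).app _⟩

/-- A morphism whose set-theoretic image lies in `U` factors through `U`. -/
theorem exists_factor {Z : Scheme.{u}} (i : Z ⟶ X) (U : X.Opens) (h : ∀ z, i z ∈ U) :
    ∃ g : Z ⟶ U, g ≫ U.ι = i :=
  ⟨IsOpenImmersion.lift U.ι i (by
    rintro _ ⟨z, rfl⟩
    rw [Scheme.Opens.range_ι]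
    exact h z), IsOpenImmersion.lift_fac _ _ _⟩

theorem subschemeι_mem (𝓘 : X.IdealSheafData) (n : ℕ) {U : X.Opens} (hU : (𝓘.support : Set X) ⊆ (U : Set X))
    (z : (𝓘 ^ (n + 1)).subscheme) : (𝓘 ^ (n + 1)).subschemeι z ∈ U := by
  have h : (𝓘 ^ (n + 1)).subschemeι z ∈ Set.range (𝓘 ^ (n + 1)).subschemeι := ⟨z, rfl⟩
  rw [Scheme.IdealSheafData.range_subschemeι, Scheme.IdealSheafData.support_pow_succ] at h
  exact hU h

/-- Pull-back along a morphism factoring through `U` only depends on the restriction to `U`. -/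
theorem nonempty_pullback_restrict {Z : Scheme.{u}} {i : Z ⟶ X} {U : X.Opens} (g : Z ⟶ U) (h : g ≫ U.ι = i)
    (M : X.Modules) :
    Nonempty ((Scheme.Modules.pullback g).obj (M.restrict U.ι) ≅ (Scheme.Modules.pullback i).obj M) :=
  ⟨(Scheme.Modules.pullback g).mapIso ((Scheme.Modules.restrictFunctorIsoPullback U.ι).app M) ≪≫
    (Scheme.Modules.pullbackComp g U.ι).app M ≪≫ (Scheme.Modules.pullbackCongr h).app M⟩

/-- First half of S3358: under `Leff(X, Y)` and `H²(X, 𝓘^{m+1}/𝓘^{m+2}) = 0` for `m ≥ p`, every invertible module on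
`Y_n`, `n ≥ p`, comes from an invertible module on an open neighbourhood of `Y`. -/
theorem exists_open_of_leff (𝓘 : X.IdealSheafData) (p : ℕ) (h1 : LefX.LeffCond X 𝓘)
    (hH : ∀ m : ℕ, p ≤ m → Subsingleton (Coh.HH X (kernel (Lef.quotMap (Lef.pow_succ_le 𝓘 m))) 2))
    (n : ℕ) (hn : p ≤ n) (N : ((𝓘 ^ (n + 1)).subscheme).Modules) (hN : PicF.IsInvertible N) :
    ∃ (U : X.Opens) (L : (U : Scheme.{u}).Modules) (g : (𝓘 ^ (n + 1)).subscheme ⟶ U),
      (𝓘.support : Set X) ⊆ (U : Set X) ∧ g ≫ U.ι = (𝓘 ^ (n + 1)).subschemeι ∧ PicF.IsInvertible L ∧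
      Nonempty ((Scheme.Modules.pullback g).obj L ≅ N) := by
  obtain ⟨M, hM, ⟨e⟩⟩ := exists_of_leff 𝓘 p h1 hH n hn N hN
  have hU : (𝓘.support : Set X) ⊆ (invLocus M : Set X) := hM
  obtain ⟨g, hg⟩ := exists_factor (𝓘 ^ (n + 1)).subschemeι (invLocus M) (subschemeι_mem 𝓘 n hU)
  obtain ⟨e'⟩ := nonempty_pullback_restrict g hg M
  exact ⟨invLocus M, M.restrict (invLocus M).ι, g, hU, hg,
    isInvertible_restrict (invLocus M) M (fun x hx => hx), ⟨e' ≪≫ e⟩⟩

end Groth.Agent.Sga2lef.H78.LeffOpen
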