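import Groth.Prelude.Def_LefX
import Groth.Prelude.Def_Formal2
import Groth.Agent.Sga2.PicThick
import Groth.Agent.Sga2.PicInj
import Groth.Agent.Sga2lef.H78.RankOne

/-!
# Invertible modules on the thickenings `Y_n` and the effective Lefschetz condition

* `exists_modSys`: if `H²(X, 𝓘^{m+1}/𝓘^{m+2}) = 0` for `m ≥ p`, an invertible module on `Y_n`, `n ≥ p`, is the level
  `n` of a levelwise invertible system of modules on the completion;
* `exists_of_leff`: under `Leff(X, Y)` it is the pull-back of a module `M` on `X` which is invertible on a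
  neighbourhood of `Y`;
* `exists_open_of_leff`: ... of an invertible module on an open neighbourhood of `Y`.
-/

set_option autoImplicit false
universe u
open CategoryTheory CategoryTheory.Limits AlgebraicGeometry TopologicalSpace Opposite

namespace Groth.Agent.Sga2lef.H78.LeffPic

open Groth.Agent.Fdesc.LocGen Groth.Agent.Sga2

variable {X : Scheme.{u}}

theorem pow_le (𝓘 : X.IdealSheafData) {m n : ℕ} (h : m ≤ n) : 𝓘 ^ (n + 1) ≤ 𝓘 ^ (m + 1) :=
  pow_le_pow_of_le_one bot_le le_top (Nat.succ_le_succ h)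

/-- The inclusion `Y_m ⟶ Y_n`, `m ≤ n`. -/
noncomputable abbrev incl (𝓘 : X.IdealSheafData) {m n : ℕ} (h : m ≤ n) :
    (𝓘 ^ (m + 1)).subscheme ⟶ (𝓘 ^ (n + 1)).subscheme :=
  Scheme.IdealSheafData.inclusion (pow_le 𝓘 h)

theorem incl_comp (𝓘 : X.IdealSheafData) {l m n : ℕ} (h : l ≤ m) (h' : m ≤ n) :
    incl 𝓘 h ≫ incl 𝓘 h' = incl 𝓘 (h.trans h') :=
  Scheme.IdealSheafData.inclusion_comp _ _

theorem nonempty_pullback_comp {A B C : Scheme.{u}} (f : A ⟶ B) (g : B ⟶ C) (k : A ⟶ C) (h : f ≫ g = k)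
    (M : C.Modules) :
    Nonempty ((Scheme.Modules.pullback f).obj ((Scheme.Modules.pullback g).obj M) ≅
      (Scheme.Modules.pullback k).obj M) :=
  ⟨(Scheme.Modules.pullbackComp f g).app M ≪≫ (Scheme.Modules.pullbackCongr h).app M⟩

/-- One step: lifting from `Y_m` to `Y_{m+1}`. -/
theorem exists_lift (𝓘 : X.IdealSheafData) (m : ℕ)
    (hH : Subsingleton (Coh.HH X (kernel (Lef.quotMap (Lef.pow_succ_le 𝓘 m))) 2))
    (M : ((𝓘 ^ (m + 1)).subscheme).Modules) (hM : PicF.IsInvertible M) :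
    ∃ M' : ((𝓘 ^ (m + 1 + 1)).subscheme).Modules, PicF.IsInvertible M' ∧
      Nonempty ((Scheme.Modules.pullback (incl 𝓘 (Nat.le_succ m))).obj M' ≅ M) := by
  refine PicThick.lift_inclusion (Lef.pow_succ_le 𝓘 m) ?_ hH M hM
  rw [← pow_mul]
  have h1 : (m + 1) * 2 = (m + 2) + m := by ring
  rw [h1, pow_add]
  exact mul_le_of_le_one_right' le_top

/-- An invertible module on `Y_n` is the `n`-th level of a levelwise invertible system on the completion. -/
theorem exists_modSys (𝓘 : X.IdealSheafData) (p : ℕ)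
    (hH : ∀ m : ℕ, p ≤ m → Subsingleton (Coh.HH X (kernel (Lef.quotMap (Lef.pow_succ_le 𝓘 m))) 2))
    (n : ℕ) (hn : p ≤ n) (N : ((𝓘 ^ (n + 1)).subscheme).Modules) (hN : PicF.IsInvertible N) :
    ∃ 𝔐 : FSch.ModSys (FSch.completionAlong X 𝓘), (∀ m, PicF.IsInvertible (𝔐.F m)) ∧
      Nonempty (𝔐.F n ≅ N) := by
  let T : ∀ k : ℕ, {M : ((𝓘 ^ (n + k + 1)).subscheme).Modules // PicF.IsInvertible M} := fun k =>
    Nat.rec (motive := fun k => {M : ((𝓘 ^ (n + k + 1)).subscheme).Modules // PicF.IsInvertible M}) ⟨N, hN⟩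
      (fun k M => ⟨(exists_lift 𝓘 (n + k) (hH _ (hn.trans (Nat.le_add_right n k))) M.1 M.2).choose,
        (exists_lift 𝓘 (n + k) (hH _ (hn.trans (Nat.le_add_right n k))) M.1 M.2).choose_spec.1⟩) k
  have hT : ∀ k : ℕ, Nonempty ((Scheme.Modules.pullback (incl 𝓘 (Nat.le_succ (n + k)))).obj (T (k + 1)).1 ≅
      (T k).1) := fun k =>
    (exists_lift 𝓘 (n + k) (hH _ (hn.trans (Nat.le_add_right n k))) (T k).1 (T k).2).choose_spec.2
  have hN' : ∀ k : ℕ, Nonempty ((Scheme.Modules.pullback (incl 𝓘 (Nat.le_add_right n k))).obj (T k).1 ≅ N) := by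
    intro k
    induction k with
    | zero =>
      have h1 : incl 𝓘 (Nat.le_add_right n 0) = 𝟙 _ := Scheme.IdealSheafData.inclusion_id _
      exact ⟨(Scheme.Modules.pullbackCongr h1).app _ ≪≫ (Scheme.Modules.pullbackId _).app _⟩
    | succ k ih =>
      obtain ⟨e⟩ := ih
      obtain ⟨e1⟩ := nonempty_pullback_comp (incl 𝓘 (Nat.le_add_right n k)) (incl 𝓘 (Nat.le_succ (n + k)))
        (incl 𝓘 (Nat.le_add_right n (k + 1))) (incl_comp 𝓘 _ _) (T (k + 1)).1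
      obtain ⟨e2⟩ := hT k
      exact ⟨e1.symm ≪≫ (Scheme.Modules.pullback _).mapIso e2 ≪≫ e⟩
  have htr : ∀ m : ℕ, Nonempty ((Scheme.Modules.pullback (incl 𝓘 (Nat.le_succ m))).obj
      ((Scheme.Modules.pullback (incl 𝓘 (Nat.le_add_left (m + 1) n))).obj (T (m + 1)).1) ≅
      (Scheme.Modules.pullback (incl 𝓘 (Nat.le_add_left m n))).obj (T m).1) := by
    intro m
    obtain ⟨e1⟩ := nonempty_pullback_comp (incl 𝓘 (Nat.le_succ m)) (incl 𝓘 (Nat.le_add_left (m + 1) n))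
      (incl 𝓘 ((Nat.le_succ m).trans (Nat.le_add_left (m + 1) n))) (incl_comp 𝓘 _ _) (T (m + 1)).1
    obtain ⟨e2⟩ := nonempty_pullback_comp (incl 𝓘 (Nat.le_add_left m n)) (incl 𝓘 (Nat.le_succ (n + m)))
      (incl 𝓘 ((Nat.le_succ m).trans (Nat.le_add_left (m + 1) n))) (incl_comp 𝓘 _ _) (T (m + 1)).1
    obtain ⟨e3⟩ := hT m
    exact ⟨e1 ≪≫ e2.symm ≪≫ (Scheme.Modules.pullback _).mapIso e3⟩
  refine ⟨{ F := fun m => (Scheme.Modules.pullback (incl 𝓘 (Nat.le_add_left m n))).obj (T m).1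
            e := fun m => (htr m).some }, fun m => PicThick.isInvertible_pullback _ (T m).2, ?_⟩
  obtain ⟨e⟩ := hN' n
  exact ⟨e⟩

theorem isInvertible_of_iso {L L' : X.Modules} (e : L ≅ L') (h : PicF.IsInvertible L) :
    PicF.IsInvertible L' := fun x => by
  obtain ⟨U, hx, ⟨e'⟩⟩ := h x
  exact ⟨U, hx, ⟨(Scheme.Modules.restrictFunctor U.ι).mapIso e.symm ≪≫ e'⟩⟩

/-- Invertible modules are finite locally free. -/
theorem isFinLocFree_of_isInvertible {L : X.Modules} (hL : PicF.IsInvertible L) : FlatMod.IsFinLocFree L := by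
  intro x
  obtain ⟨U, hx, ⟨e⟩⟩ := hL x
  obtain ⟨e'⟩ := RankOne.nonempty_freeMod_one (U : Scheme.{u})
  exact ⟨U, 1, hx, ⟨e ≪≫ e'⟩⟩

/-- Under the effective Lefschetz condition and the vanishing of `H²(X, 𝓘^{m+1}/𝓘^{m+2})` for `m ≥ p`, every invertible
module on `Y_n`, `n ≥ p`, is the pull-back of a module on `X` which is invertible near `Y`. -/
theorem exists_of_leff (𝓘 : X.IdealSheafData) (p : ℕ) (h1 : LefX.LeffCond X 𝓘)
    (hH : ∀ m : ℕ, p ≤ m → Subsingleton (Coh.HH X (kernel (Lef.quotMap (Lef.pow_succ_le 𝓘 m))) 2))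
    (n : ℕ) (hn : p ≤ n) (N : ((𝓘 ^ (n + 1)).subscheme).Modules) (hN : PicF.IsInvertible N) :
    ∃ M : X.Modules, (∀ x ∈ (𝓘.support : Set X), ∃ (W : X.Opens) (s : Γ(M, W)), x ∈ W ∧ IsGen s) ∧
      Nonempty ((Scheme.Modules.pullback (𝓘 ^ (n + 1)).subschemeι).obj M ≅ N) := by
  obtain ⟨𝔐, hinv, ⟨eN⟩⟩ := exists_modSys 𝓘 p hH n hn N hN
  obtain ⟨U, E, hU, hE, ⟨e⟩⟩ := h1.2 𝔐 fun m => isFinLocFree_of_isInvertible (hinv m)
  let M : X.Modules := (Scheme.Modules.pushforward U.ι).obj E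
  have eM : ∀ m : ℕ, Nonempty ((Scheme.Modules.pullback (𝓘 ^ (m + 1)).subschemeι).obj M ≅ 𝔐.F m) := fun m =>
    ⟨{ hom := e.hom.app m
       inv := e.inv.app m
       hom_inv_id := congrArg (fun f => FSch.ModSys.Hom.app f m) e.hom_inv_id
       inv_hom_id := congrArg (fun f => FSch.ModSys.Hom.app f m) e.inv_hom_id }⟩
  have eE : M.restrict U.ι ≅ E := (asIso (Scheme.Modules.restrictAdjunction U.ι).counit).app E
  refine ⟨M, fun x hx => ?_, ?_⟩
  · obtain ⟨V, r, hxV, ⟨eV⟩⟩ := hE ⟨x, hU hx⟩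
    obtain ⟨z, rfl⟩ : x ∈ Set.range (𝓘 ^ (0 + 1)).subschemeι := by
      rw [Scheme.IdealSheafData.range_subschemeι, Scheme.IdealSheafData.support_pow_succ]
      exact hx
    obtain ⟨e0⟩ := eM 0
    refine RankOne.exists_gen (V.ι ≫ U.ι) (M := M) (n := r)
      ((Scheme.Modules.restrictFunctorComp V.ι U.ι).app M ≪≫
        (Scheme.Modules.restrictFunctor V.ι).mapIso eE ≪≫ eV) (𝓘 ^ (0 + 1)).subschemeι
      ?_ z ⟨⟨_, hxV⟩, rfl⟩
    exact isInvertible_of_iso e0.symm (hinv 0)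
  · obtain ⟨e0⟩ := eM n
    exact ⟨e0 ≪≫ eN⟩

end Groth.Agent.Sga2lef.H78.LeffPic
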