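import Groth.Agent.Sga2lef.H78.KCalc
import Groth.Agent.Dcoh.FinLocFree

/-!
# Adic systems: change of the ideal

`J ≤ K` and `K ^ e ≤ J`: a `K`-adic system defines a `J`-adic system with the same algebraizations.
-/

set_option autoImplicit false
universe u

open CategoryTheory CategoryTheory.Limits AlgebraicGeometry Opposite

namespace Groth.Agent.Sga2lef.H78.Passage

open Groth.Agent.FormalB.KQuot Groth.Agent.FormalB.TrKQuot KCalc

variable {X : Scheme.{u}} {J K : X.IdealSheafData}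

theorem pow_mono_ideal (h : J ≤ K) (n : ℕ) : J ^ n ≤ K ^ n := pow_le_pow_left' h n

theorem pow_mul_le {e : ℕ} (h : K ^ e ≤ J) (n : ℕ) : K ^ (e * n + 1) ≤ J ^ n := by
  have h1 : (K ^ e) ^ n ≤ J ^ n := pow_mono_ideal h n
  rw [← pow_mul] at h1
  exact (pow_le_pow_of_le_one bot_le le_top (Nat.le_succ _)).trans h1

/-- Finite locally free modules over a smaller thickening. -/
theorem lf_of_le (M : X.Modules) (h : K ≤ J)
    (hM : FlatMod.IsFinLocFree ((Scheme.Modules.pullback K.subschemeι).obj M)) :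
    FlatMod.IsFinLocFree ((Scheme.Modules.pullback J.subschemeι).obj M) := by
  have h1 := PerfC.PullRestrict.isFinLocFree_pullback (Scheme.IdealSheafData.inclusion h) hM
  exact Dcoh.FinLocFree.isFinLocFree_of_iso
    ((Scheme.Modules.pullbackComp (Scheme.IdealSheafData.inclusion h) K.subschemeι).app M ≪≫
      (Scheme.Modules.pullbackCongr (Scheme.IdealSheafData.inclusion_subschemeι h)).app M) h1

theorem lf_kq (M : X.Modules) (h : FlatMod.IsFinLocFree ((Scheme.Modules.pullback K.subschemeι).obj M)) :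
    FlatMod.IsFinLocFree ((Scheme.Modules.pullback K.subschemeι).obj (kq K M)) := by
  have := isIso_pullback_kπ K M
  exact Dcoh.FinLocFree.isFinLocFree_of_iso
    (asIso ((Scheme.Modules.pullback K.subschemeι).map (kπ K M))) h

variable {e : ℕ} (hKJ : K ^ e ≤ J) (S : Sys K)

/-- The modules of the `J`-adic system. -/
noncomputable abbrev PG (J : X.IdealSheafData) (e : ℕ) (S : Sys K) (n : ℕ) : X.Modules :=
  kq (J ^ (n + 1)) (S.G (e * (n + 1)))

/-- The quotient map. -/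
noncomputable abbrev pπ (J : X.IdealSheafData) (e : ℕ) (S : Sys K) (n : ℕ) :
    S.G (e * (n + 1)) ⟶ PG J e S n := kπ (J ^ (n + 1)) (S.G (e * (n + 1)))

theorem isKQuot_pπ (n : ℕ) : IsKQuot (J ^ (n + 1)) (pπ J e S n) := isKQuot_kπ _ (S.qc _)

theorem exists_t (n : ℕ) : ∃ t : PG J e S (n + 1) ⟶ PG J e S n,
    pπ J e S (n + 1) ≫ t = S.tr (Nat.mul_le_mul_left e (Nat.le_succ (n + 1))) ≫ pπ J e S n :=
  (isKQuot_pπ S (n + 1)).desc _ (killedByIdeal_of_le
    (pow_le_pow_of_le_one bot_le le_top (Nat.le_succ _)) (isKQuot_pπ S n).killed)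

/-- The `J`-adic system. -/
noncomputable def passage : Sys J where
  G n := PG J e S n
  t n := (exists_t S n).choose
  kq n := by
    have := (isKQuot_pπ (J := J) (e := e) S (n + 1)).epi
    refine isKQuot_of_comp (p := pπ J e S (n + 1)) ?_
    rw [(exists_t S n).choose_spec]
    exact isKQuot_comp (S.isKQuot_tr _) (isKQuot_pπ S n) (pow_mul_le hKJ (n + 1))
  qc n := isQCoh_kq _ (S.qc _)
  lf n := lf_kq _ (lf_of_le _ (pow_mul_le hKJ (n + 1)) (S.lf _))

/-- The quotient map. -/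
noncomputable def qπ (n : ℕ) : S.G (e * (n + 1)) ⟶ (passage hKJ S).G n := pπ J e S n

theorem isKQuot_qπ (n : ℕ) : IsKQuot (J ^ (n + 1)) (qπ hKJ S n) := isKQuot_pπ S n

theorem passage_t (n : ℕ) : qπ hKJ S (n + 1) ≫ (passage hKJ S).t n =
    S.tr (Nat.mul_le_mul_left e (Nat.le_succ (n + 1))) ≫ qπ hKJ S n := (exists_t S n).choose_spec

theorem alg_of_passage (hJK : J ≤ K) (he : 0 < e) {F : X.Modules} (h : Alg (passage hKJ S) F) :
    Alg S F := by
  obtain ⟨p, hp, hq⟩ := h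
  have hle : ∀ n, n ≤ e * (n + 1) := fun n => (Nat.le_succ n).trans (Nat.le_mul_of_pos_left _ he)
  have hσ : ∀ n, ∃ σ : (passage hKJ S).G n ⟶ S.G n, qπ hKJ S n ≫ σ = S.tr (hle n) ∧
      IsKQuot (K ^ (n + 1)) σ :=
    fun n => exists_factor (isKQuot_qπ hKJ S n) (S.isKQuot_tr (hle n)) (pow_mono_ideal hJK _)
  choose σ hσ1 hσ2 using hσ
  have key : ∀ n, σ (n + 1) ≫ S.t n = (passage hKJ S).t n ≫ σ n := by
    intro n
    have := (isKQuot_qπ hKJ S (n + 1)).epi
    have h1 : qπ hKJ S (n + 1) ≫ (passage hKJ S).t n ≫ σ n =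
        S.tr (Nat.mul_le_mul_left e (Nat.le_succ (n + 1))) ≫ S.tr (hle n) := by
      rw [← Category.assoc, passage_t, Category.assoc, hσ1]
    have h2 : qπ hKJ S (n + 1) ≫ σ (n + 1) ≫ S.t n = S.tr (hle (n + 1)) ≫ S.tr (Nat.le_succ n) := by
      rw [← Category.assoc, hσ1, Sys.tr_succ]
    rw [← cancel_epi (qπ hKJ S (n + 1)), h1, h2]
    exact (S.tr_comp _ _).trans (S.tr_comp _ _).symm
  refine ⟨fun n => p n ≫ σ n, fun n => ?_, fun n => isKQuot_comp (hq n) (hσ2 n) (pow_mono_ideal hJK _)⟩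
  calc (p (n + 1) ≫ σ (n + 1)) ≫ S.t n = p (n + 1) ≫ (σ (n + 1) ≫ S.t n) := Category.assoc _ _ _
    _ = p (n + 1) ≫ (passage hKJ S).t n ≫ σ n := by rw [key]
    _ = (p (n + 1) ≫ (passage hKJ S).t n) ≫ σ n := (Category.assoc _ _ _).symm
    _ = p n ≫ σ n := by rw [hp]

end Groth.Agent.Sga2lef.H78.Passage
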