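import Mathlib.CategoryTheory.Abelian.CommSq
import Groth.Agent.FormalB.TrKQuot

/-!
# Pullback squares in abelian categories, sections of pullbacks of modules
-/

set_option autoImplicit false
universe u v w

open CategoryTheory CategoryTheory.Limits

namespace Groth.Agent.Sga2lef.H78.SqPull

section Abelian

variable {C : Type u} [Category.{v} C] [Abelian C] {G B G' B' : C} {π : G ⟶ B} {t : G ⟶ G'}
  {b : B ⟶ B'} {π' : G' ⟶ B'}

theorem isPullback_of_refine (w : π ≫ b = t ≫ π') [Epi π]
    (hex : (ShortComplex.mk (kernel.ι π ≫ t) π' (by rw [Category.assoc, ← w,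
      kernel.condition_assoc, zero_comp])).Exact)
    (hm : ∀ {T : C} (z : T ⟶ G), z ≫ π = 0 → z ≫ t = 0 → z = 0) : IsPullback π t b π' := by
  let κ : G ⟶ pullback b π' := pullback.lift π t w
  have hκ1 : κ ≫ pullback.fst b π' = π := pullback.lift_fst _ _ _
  have hκ2 : κ ≫ pullback.snd b π' = t := pullback.lift_snd _ _ _
  have hmono : Mono κ := by
    refine Preadditive.mono_of_cancel_zero _ fun {T} z hz => hm z ?_ ?_
    · rw [← hκ1, ← Category.assoc, hz, zero_comp]
    · rw [← hκ2, ← Category.assoc, hz, zero_comp]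
  have hepi : Epi κ := by
    rw [epi_iff_surjective_up_to_refinements]
    intro T x
    obtain ⟨T', e, he, g, hg⟩ := surjective_up_to_refinements_of_epi π (x ≫ pullback.fst b π')
    have h3 : (g ≫ t - e ≫ x ≫ pullback.snd b π') ≫ π' = 0 := by
      have h4 : g ≫ t ≫ π' = e ≫ x ≫ pullback.snd b π' ≫ π' := by
        rw [← w, ← Category.assoc, ← hg, ← pullback.condition]
        simp only [Category.assoc]
      rw [Preadditive.sub_comp]
      simp only [Category.assoc]
      rw [h4, sub_self]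
    obtain ⟨T'', e', he', k, hk⟩ := hex.exact_up_to_refinements _ h3
    have hk' : e' ≫ (g ≫ t - e ≫ x ≫ pullback.snd b π') = k ≫ kernel.ι π ≫ t := hk
    refine ⟨T'', e' ≫ e, inferInstance, e' ≫ g - (show T'' ⟶ kernel π from k) ≫ kernel.ι π, ?_⟩
    apply pullback.hom_ext
    · simp only [Category.assoc]
      rw [hκ1, Preadditive.sub_comp, Category.assoc, Category.assoc, kernel.condition, comp_zero,
        sub_zero, ← hg]
    · simp only [Category.assoc]
      rw [hκ2, Preadditive.sub_comp, Category.assoc, Category.assoc]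
      have h6 : e' ≫ g ≫ t - k ≫ kernel.ι π ≫ t = e' ≫ e ≫ x ≫ pullback.snd b π' := by
        rw [← hk', Preadditive.comp_sub, sub_sub_cancel]
      exact h6.symm
  have hiso : IsIso κ := isIso_of_mono_of_epi κ
  exact IsPullback.of_iso_pullback ⟨w⟩ (asIso κ) hκ1 hκ2

end Abelian

section Modules

open AlgebraicGeometry Groth.Agent.FormalB.KQuot Groth.Agent.FormalB.TrKQuot
  Groth.Agent.FormalB Groth.Agent.CohqB.QC2

variable {X : Scheme.{u}}

/-- The bottom right corner is the quotient of `G'`. -/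
theorem exact_of_isKQuot {T : X.IdealSheafData} {G B G' B' : X.Modules} {π : G ⟶ B} {t : G ⟶ G'}
    {b : B ⟶ B'} {π' : G' ⟶ B'} (w : π ≫ b = t ≫ π') [Epi t] (hπ : IsKQuot T π)
    (hπ' : IsKQuot T π') :
    (ShortComplex.mk (kernel.ι π ≫ t) π' (by rw [Category.assoc, ← w,
      kernel.condition_assoc, zero_comp])).Exact := by
  have := hπ.epi
  have := hπ'.epi
  refine ShortComplex.exact_of_g_is_cokernel _ ?_
  have key : ∀ {Z : X.Modules} (φ : G' ⟶ Z), (kernel.ι π ≫ t) ≫ φ = 0 → ∃ ψ : B' ⟶ Z, π' ≫ ψ = φ := by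
    intro Z φ hφ
    have h1 : kernel.ι π ≫ t ≫ factorThruImage φ = 0 := by
      rw [← cancel_mono (Limits.image.ι φ)]
      simp only [Category.assoc, Limits.image.fac, zero_comp]
      rw [← Category.assoc]
      exact hφ
    let χ : B ⟶ Limits.image φ := Abelian.epiDesc π (t ≫ factorThruImage φ) h1
    have hχ : π ≫ χ = t ≫ factorThruImage φ := Abelian.comp_epiDesc π _ h1
    have hχe : Epi χ := by
      have : Epi (π ≫ χ) := by rw [hχ]; infer_instance
      exact epi_of_epi π χ
    obtain ⟨ψ, hψ⟩ := hπ'.desc (factorThruImage φ) (killedByIdeal_of_epi χ hπ.killed)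
    exact ⟨ψ ≫ Limits.image.ι φ, by rw [← Category.assoc, hψ, Limits.image.fac]⟩
  exact CokernelCofork.IsColimit.ofπ _ _ (fun φ hφ => (key φ hφ).choose)
    (fun φ hφ => (key φ hφ).choose_spec)
    (fun φ hφ m hm => by rw [← cancel_epi π', hm, (key φ hφ).choose_spec])

/-- A section of a pullback is determined by its components. -/
theorem eq_zero_of_components {F A G' B' : X.Modules} {f : F ⟶ A} {s : F ⟶ G'} {q : A ⟶ B'}
    {π' : G' ⟶ B'} (h : IsPullback f s q π') (V : X.Opens) (y : Γ(F, V)) (h1 : f.app V y = 0)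
    (h2 : s.app V y = 0) : y = 0 := by
  have hm : Mono (biprod.lift f s) := h.mono_shortComplex'_f
  refine injective_app_of_mono (biprod.lift f s) V ?_
  have h3 : biprod.lift f s = f ≫ biprod.inl + s ≫ biprod.inr := by
    apply biprod.hom_ext <;> simp
  rw [h3, map_zero, Scheme.Modules.Hom.add_app]
  change (biprod.inl : A ⟶ A ⊞ G').app V (f.app V y) + (biprod.inr : G' ⟶ A ⊞ G').app V (s.app V y) = 0
  rw [h1, h2, map_zero, map_zero, add_zero]

/-- Criterion for `K`-quotients. -/
theorem isKQuot_of_sections {K : X.IdealSheafData} {M N : X.Modules} (p : M ⟶ N) [Epi p]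
    (hN : ClSub.KilledByIdeal K N)
    (h : ∀ (V : X.affineOpens) (s : Γ(M, V.1)), p.app V.1 s = 0 →
      s ∈ K.ideal V • (⊤ : Submodule Γ(X, V.1) Γ(M, V.1))) : IsKQuot K p := by
  refine ⟨inferInstance, hN, fun {Z} φ hφ => ?_⟩
  have hkt : kernel.ι p ≫ φ = 0 := by
    apply SysSect.hom_eq_zero_of_affine
    intro U hU m
    have h1 : p.app U ((kernel.ι p).app U m) = 0 := by
      have := congr(($(kernel.condition p)).app U m)
      exact this
    exact app_eq_zero_of_mem φ hφ ⟨U, hU⟩ _ (h ⟨U, hU⟩ _ h1)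
  exact ⟨Abelian.epiDesc p φ hkt, Abelian.comp_epiDesc p φ hkt⟩

end Modules

end Groth.Agent.Sga2lef.H78.SqPull
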