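import Groth.Agent.Sga2lef.H78.Passage
import Groth.Agent.Divis.IdealComap

/-!
# Pull-back of adic systems to a closed subscheme
-/

set_option autoImplicit false
universe u

open CategoryTheory CategoryTheory.Limits AlgebraicGeometry Opposite

namespace Groth.Agent.Sga2lef.H78.SysPull

open Groth.Agent.FormalB Groth.Agent.FormalB.KQuot Groth.Agent.FormalB.TrKQuot KCalc

variable {X Z : Scheme.{u}} {K : X.IdealSheafData} (a : Z ⟶ X)

theorem app_mem_comap [IsAffineHom a] (U : X.affineOpens) (b : Γ(X, U.1)) (hb : b ∈ K.ideal U) :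
    a.app U.1 b ∈ (K.comap a).ideal ⟨a ⁻¹ᵁ U.1, U.2.preimage a⟩ := by
  rw [Divis.IdealComap.ideal_comap K a U ⟨a ⁻¹ᵁ U.1, U.2.preimage a⟩ le_rfl]
  have h := Ideal.mem_map_of_mem (a.appLE U.1 (a ⁻¹ᵁ U.1) le_rfl).hom hb
  rw [Scheme.Hom.appLE_eq_app] at h ⊢
  exact h

theorem killed_push [IsAffineHom a] {M : Z.Modules} (hM : ClSub.KilledByIdeal (K.comap a) M) :
    ClSub.KilledByIdeal K ((Scheme.Modules.pushforward a).obj M) :=
  fun U b hb m => hM ⟨a ⁻¹ᵁ U.1, U.2.preimage a⟩ _ (app_mem_comap a U b hb) m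

theorem killed_of_push [IsClosedImmersion a] {M : Z.Modules}
    (h : ClSub.KilledByIdeal K ((Scheme.Modules.pushforward a).obj M)) :
    ClSub.KilledByIdeal (K.comap a) M := by
  intro W c hc m
  refine smul_eq_zero_of_local (M := M) (U := W.1) (c • m) ?_
  intro x hx
  obtain ⟨O, hO⟩ := Ega1.ClosedUnit.exists_opens_eq a a.isClosedEmbedding.isInducing W.1
  have hxO : a x ∈ O := by
    have : x ∈ a ⁻¹ᵁ O := by rw [← hO]; exact hx
    exact this
  obtain ⟨V, hV, hxV, hVO⟩ := exists_isAffineOpen_mem_and_subset (x := a x) (U := O) hxO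
  have hVO' : V ≤ O := hVO
  have hle : a ⁻¹ᵁ V ≤ W.1 := by
    rw [hO]
    exact a.preimage_mono hVO'
  refine ⟨a ⁻¹ᵁ V, hle, hxV, ?_⟩
  refine (CohqB.QC2.res_smul M hle c m).trans ?_
  have h1 : CohqB.QC2.resR hle c ∈ (K.comap a).ideal ⟨a ⁻¹ᵁ V, hV.preimage a⟩ :=
    (K.comap a).ideal_le_comap_ideal (U := ⟨a ⁻¹ᵁ V, hV.preimage a⟩) (V := W) hle hc
  have h2 : (K.comap a).ideal ⟨a ⁻¹ᵁ V, hV.preimage a⟩ ≤
      Module.annihilator Γ(Z, a ⁻¹ᵁ V) Γ(M, a ⁻¹ᵁ V) := by
    rw [Divis.IdealComap.ideal_comap K a ⟨V, hV⟩ ⟨a ⁻¹ᵁ V, hV.preimage a⟩ le_rfl,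
      Ideal.map_le_iff_le_comap]
    intro b hb
    rw [Ideal.mem_comap, Scheme.Hom.appLE_eq_app, Module.mem_annihilator]
    intro m'
    exact h ⟨V, hV⟩ b hb m'
  exact Module.mem_annihilator.mp (h2 h1) _

/-- `a^* M` is killed by `a⁻¹K` if `M` is killed by `K`. -/
theorem killed_pull (T : X.IdealSheafData) {M : X.Modules} (hM : ClSub.KilledByIdeal K M) :
    ClSub.KilledByIdeal (K.comap T.subschemeι) ((Scheme.Modules.pullback T.subschemeι).obj M) := by
  have := epi_kπ T M
  have h : ClSub.KilledByIdeal K (kq T M) := killedByIdeal_of_epi (kπ T M) hM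
  exact killed_of_push T.subschemeι h

/-- Pull-back of quotients. -/
theorem isKQuot_pull (T : X.IdealSheafData) {M N : X.Modules} {p : M ⟶ N} (hp : IsKQuot K p) :
    IsKQuot (K.comap T.subschemeι) ((Scheme.Modules.pullback T.subschemeι).map p) := by
  let adj := Scheme.Modules.pullbackPushforwardAdjunction T.subschemeι
  have := hp.epi
  have : (Scheme.Modules.pullback T.subschemeι).IsLeftAdjoint := adj.isLeftAdjoint
  refine ⟨inferInstance, killed_pull T hp.killed, fun {W} φ hφ => ?_⟩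
  obtain ⟨ψ, hψ⟩ := hp.desc (adj.homEquiv _ _ φ) (killed_push T.subschemeι hφ)
  refine ⟨(adj.homEquiv _ _).symm ψ, ?_⟩
  rw [← adj.homEquiv_naturality_left_symm, hψ, Equiv.symm_apply_apply]

/-- The pull-back of an adic system to a closed subscheme. -/
noncomputable def pull (T : X.IdealSheafData) (S : Sys K) : Sys (K.comap T.subschemeι) where
  G n := (Scheme.Modules.pullback T.subschemeι).obj (S.G n)
  t n := (Scheme.Modules.pullback T.subschemeι).map (S.t n)
  kq n := by
    rw [← Divis.IdealComap.comap_pow]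
    exact isKQuot_pull T (S.kq n)
  qc n := PullCoh.isQuasicoherent_pullback T.subschemeι _ (S.qc n)
  lf n := by
    rw [← Divis.IdealComap.comap_pow]
    let I := (K ^ (n + 1)).comap T.subschemeι
    let j : I.subscheme ⟶ (K ^ (n + 1)).subscheme :=
      Scheme.IdealSheafData.subschemeMap I (K ^ (n + 1)) T.subschemeι
        ((K ^ (n + 1)).le_map_comap T.subschemeι)
    have hj : j ≫ (K ^ (n + 1)).subschemeι = I.subschemeι ≫ T.subschemeι :=
      Scheme.IdealSheafData.subschemeMap_subschemeι _ _ _ _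
    have h1 := PerfC.PullRestrict.isFinLocFree_pullback j (S.lf n)
    exact Dcoh.FinLocFree.isFinLocFree_of_iso
      ((Scheme.Modules.pullbackComp j (K ^ (n + 1)).subschemeι).app (S.G n) ≪≫
        (Scheme.Modules.pullbackCongr hj).app (S.G n) ≪≫
        ((Scheme.Modules.pullbackComp I.subschemeι T.subschemeι).app (S.G n)).symm) h1

/-- Transport along an equality of ideals. -/
def cast {K K' : X.IdealSheafData} (h : K = K') (S : Sys K) : Sys K' where
  G := S.G
  t := S.t
  kq n := h ▸ S.kq n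
  qc := S.qc
  lf n := h ▸ S.lf n

end Groth.Agent.Sga2lef.H78.SysPull
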