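import Groth.Agent.Sga2lef.H78.SysPull
import Groth.Agent.Sga2lef.H78.SqPull
import Groth.Agent.Sga2lef.H78.DualBasis
import Groth.Agent.CohqA.AffPush
import Groth.Agent.PerfA.CohSerre

/-!
# Glueing an algebraization over `V(T)` with a finite level of the system

`T ⊓ J^(N+1) = 0`. If the pull-back of a `J`-adic system `S` to `V(T)` is algebraizable, then so is `S`.
-/

set_option autoImplicit false
universe u

open CategoryTheory CategoryTheory.Limits AlgebraicGeometry Opposite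

namespace Groth.Agent.Sga2lef.H78.Torsion

open Groth.Agent.FormalB Groth.Agent.FormalB.KQuot Groth.Agent.FormalB.TrKQuot KCalc SysPull
  SqPull DualBasis

variable {X : Scheme.{u}}

/-- `T M ∩ J^(N+1) M = 0` for `M` locally free over `O / J^(n+1)`, `N ≤ n`. -/
theorem eq_zero_of_mem (T J : X.IdealSheafData) (N : ℕ) (hTJ : T ⊓ J ^ (N + 1) = ⊥) (S : Sys J)
    (n : ℕ) (h : N ≤ n) (V : X.affineOpens) (z : Γ(S.G n, V.1))
    (h1 : z ∈ T.ideal V • (⊤ : Submodule Γ(X, V.1) Γ(S.G n, V.1)))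
    (h2 : z ∈ (J ^ (N + 1)).ideal V • (⊤ : Submodule Γ(X, V.1) Γ(S.G n, V.1))) : z = 0 := by
  obtain ⟨r, a, b, ha, hab⟩ := exists_dualBasis_sec (J ^ (n + 1)) (S.killed n) (S.lf n) V.2
  let i := (J ^ (n + 1)).subschemeι
  have hmem : ∀ (I : X.IdealSheafData) (z : Γ(S.G n, V.1)),
      z ∈ I.ideal V • (⊤ : Submodule Γ(X, V.1) Γ(S.G n, V.1)) →
      ∀ j, ∃ c ∈ I.ideal V, i.app V.1 c = a j z := by
    intro I z hz j
    refine Submodule.smul_induction_on hz (fun c hc m _ => ?_) (fun x y hx hy => ?_)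
    · obtain ⟨d, hd⟩ := Scheme.Hom.app_surjective i _ V.2 (a j m)
      exact ⟨c * d, Ideal.mul_mem_right _ _ hc, by rw [map_mul, hd, ha]⟩
    · obtain ⟨c, hc, hc'⟩ := hx
      obtain ⟨d, hd, hd'⟩ := hy
      exact ⟨c + d, Ideal.add_mem _ hc hd, by rw [map_add, map_add, hc', hd']⟩
  have h0 : ∀ j, a j z = 0 := by
    intro j
    obtain ⟨c, hc, hc'⟩ := hmem T z h1 j
    obtain ⟨d, hd, hd'⟩ := hmem (J ^ (N + 1)) z h2 j
    have h3 : c - d ∈ (J ^ (n + 1)).ideal V := by
      have h4 := Scheme.IdealSheafData.ker_subschemeι_app (J ^ (n + 1)) V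
      have h5 : c - d ∈ RingHom.ker (i.app V.1).hom := by
        rw [RingHom.mem_ker]
        change i.app V.1 (c - d) = 0
        rw [map_sub, hc', hd', sub_self]
      rw [h4] at h5
      exact h5
    have h4 : (J ^ (n + 1)).ideal V ≤ (J ^ (N + 1)).ideal V := by
      have : J ^ (n + 1) ≤ J ^ (N + 1) := pow_le_pow_of_le_one bot_le le_top (by omega)
      exact this V
    have h5 : c ∈ (T ⊓ J ^ (N + 1)).ideal V := by
      rw [Scheme.IdealSheafData.ideal_inf, Pi.inf_apply]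
      refine ⟨hc, ?_⟩
      have := Ideal.add_mem _ (h4 h3) hd
      rwa [sub_add_cancel] at this
    rw [hTJ] at h5
    have h6 : c = 0 := h5
    rw [← hc', h6, map_zero]
  have h3 := hab z (fun _ => 0) (fun j => by rw [map_zero, h0 j])
  rw [h3]
  simp

theorem pull_tr (T : X.IdealSheafData) {J : X.IdealSheafData} (S : Sys J) {n m : ℕ} (h : n ≤ m) :
    (pull T S).tr h = (Scheme.Modules.pullback T.subschemeι).map (S.tr h) := by
  induction m, h using Nat.le_induction with
  | base => rw [Sys.tr_refl, Sys.tr_refl, CategoryTheory.Functor.map_id]; rfl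
  | succ m h ih =>
    rw [← (pull T S).tr_comp h (Nat.le_succ m), ← S.tr_comp h (Nat.le_succ m), Sys.tr_succ,
      Sys.tr_succ, Functor.map_comp, ih]
    rfl

section

variable (T J : X.IdealSheafData) (S : Sys J) (F1 : T.subscheme.Modules)
  (p1 : ∀ n, F1 ⟶ (pull T S).G n)

/-- The push-forward of the algebraization over `V(T)`. -/
noncomputable abbrev A : X.Modules := (Scheme.Modules.pushforward T.subschemeι).obj F1

/-- The levels of the system over `V(T)`. -/
noncomputable abbrev B (n : ℕ) : X.Modules := kq T (S.G n)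

/-- The quotient maps. -/
noncomputable def q (n : ℕ) : A T F1 ⟶ B T J S n := (Scheme.Modules.pushforward T.subschemeι).map (p1 n)

/-- The quotient maps. -/
noncomputable abbrev π (n : ℕ) : S.G n ⟶ B T J S n := kπ T (S.G n)

/-- The transition maps. -/
noncomputable def b {n m : ℕ} (h : n ≤ m) : B T J S m ⟶ B T J S n :=
  (Scheme.Modules.pushforward T.subschemeι).map
    ((Scheme.Modules.pullback T.subschemeι).map (S.tr h))

theorem sq {n m : ℕ} (h : n ≤ m) : π T J S m ≫ b T J S h = S.tr h ≫ π T J S n :=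
  ((Scheme.Modules.pullbackPushforwardAdjunction T.subschemeι).unit.naturality (S.tr h)).symm

theorem isPullback_levels (N : ℕ) (hTJ : T ⊓ J ^ (N + 1) = ⊥) {n : ℕ} (h : N ≤ n) :
    IsPullback (π T J S n) (S.tr h) (b T J S h) (π T J S N) := by
  have h1 := (S.isKQuot_tr h).epi
  have h2 := epi_kπ T (S.G n)
  refine isPullback_of_refine (sq T J S h) (exact_of_isKQuot (sq T J S h)
    (isKQuot_kπ T (S.qc n)) (isKQuot_kπ T (S.qc N))) ?_
  intro W z hz1 hz2
  apply SysSect.hom_eq_zero_of_affine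
  intro U hU m
  refine eq_zero_of_mem T J N hTJ S n h ⟨U, hU⟩ _ ?_ ?_
  · rw [← TrKQuot.IsKQuot.app_eq_zero_iff (isKQuot_kπ T (S.qc n)) (S.qc n) ⟨U, hU⟩]
    exact congr(($hz1).app U m)
  · rw [← TrKQuot.IsKQuot.app_eq_zero_iff (S.isKQuot_tr h) (S.qc n) ⟨U, hU⟩]
    exact congr(($hz2).app U m)

theorem q_b (hp1 : ∀ n, p1 (n + 1) ≫ (pull T S).t n = p1 n) {n m : ℕ} (h : n ≤ m) :
    q T J S F1 p1 m ≫ b T J S h = q T J S F1 p1 n := by
  have h1 := tr_of_compat (pull T S) p1 hp1 h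
  rw [pull_tr] at h1
  rw [q, q, b, ← h1]
  exact (Functor.map_comp _ _ _).symm

/-- Sections of the kernel of `A → B n`. -/
theorem q_eq_zero (hF1 : Coh.IsQCoh F1)
    (hp2 : ∀ n, IsKQuot ((J.comap T.subschemeι) ^ (n + 1)) (p1 n)) (n : ℕ) (V : X.affineOpens)
    (x : Γ(A T F1, V.1)) (hx : (q T J S F1 p1 n).app V.1 x = 0) :
    x ∈ (J ^ (n + 1)).ideal V • (⊤ : Submodule Γ(X, V.1) Γ(A T F1, V.1)) := by
  let a := T.subschemeι
  let W : T.subscheme.affineOpens := ⟨a ⁻¹ᵁ V.1, V.2.preimage a⟩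
  have h1 := (TrKQuot.IsKQuot.app_eq_zero_iff (hp2 n) hF1 W x).mp hx
  rw [← Divis.IdealComap.comap_pow,
    Divis.IdealComap.ideal_comap (J ^ (n + 1)) a V W le_rfl] at h1
  have key : ∀ c ∈ Ideal.map (a.appLE V.1 W.1 le_rfl).hom ((J ^ (n + 1)).ideal V),
      ∀ m : Γ(F1, W.1), (show Γ(A T F1, V.1) from (c • m : Γ(F1, W.1))) ∈
        (J ^ (n + 1)).ideal V • (⊤ : Submodule Γ(X, V.1) Γ(A T F1, V.1)) := by
    intro c hc
    refine Submodule.span_induction (p := fun c _ => ∀ m : Γ(F1, W.1),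
      (show Γ(A T F1, V.1) from (c • m : Γ(F1, W.1))) ∈
      (J ^ (n + 1)).ideal V • (⊤ : Submodule Γ(X, V.1) Γ(A T F1, V.1))) ?_ ?_ ?_ ?_ hc
    · rintro _ ⟨c, hc, rfl⟩ m
      have h2 : c • (show Γ(A T F1, V.1) from m) ∈
          (J ^ (n + 1)).ideal V • (⊤ : Submodule Γ(X, V.1) Γ(A T F1, V.1)) :=
        Submodule.smul_mem_smul hc trivial
      have h3 : a.appLE V.1 W.1 le_rfl = a.app V.1 := Scheme.Hom.appLE_eq_app a
      rw [h3]
      exact h2
    · intro m
      have h2 : ((0 : Γ(T.subscheme, W.1)) • m : Γ(F1, W.1)) = 0 := zero_smul _ m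
      rw [h2]
      exact Submodule.zero_mem _
    · intro c d _ _ hc hd m
      have h2 : ((c + d) • m : Γ(F1, W.1)) = c • m + d • m := add_smul c d m
      rw [h2]
      exact Submodule.add_mem _ (hc m) (hd m)
    · intro e c _ hc m
      have h2 : ((e • c) • m : Γ(F1, W.1)) = c • (e • m) := by
        rw [smul_assoc, smul_comm]
      rw [h2]
      exact hc _
  let Q : Γ(F1, W.1) → Prop := fun x => (show Γ(A T F1, V.1) from x) ∈
    (J ^ (n + 1)).ideal V • (⊤ : Submodule Γ(X, V.1) Γ(A T F1, V.1))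
  have hQ : Q x := Submodule.smul_induction_on (p := Q) h1
    (fun c hc m _ => key c hc m)
    (fun x y (hx : Q x) (hy : Q y) => Submodule.add_mem
      ((J ^ (n + 1)).ideal V • (⊤ : Submodule Γ(X, V.1) Γ(A T F1, V.1))) hx hy)
  exact hQ

/-- `A → B n` is an epimorphism. -/
theorem epi_q (hF1 : Coh.IsQCoh F1)
    (hp2 : ∀ n, IsKQuot ((J.comap T.subschemeι) ^ (n + 1)) (p1 n)) (n : ℕ) :
    Epi (q T J S F1 p1 n) := by
  apply SysSect.epi_of_affine
  intro U hU
  exact TrKQuot.IsKQuot.app_surjective (hp2 n) hF1 (hU.preimage T.subschemeι)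

end

/-- **Glueing.** -/
theorem exists_glue [IsLocallyNoetherian X] (T J : X.IdealSheafData) (N : ℕ)
    (hTJ : T ⊓ J ^ (N + 1) = ⊥) (S : Sys J) (F1 : T.subscheme.Modules) (hF1 : Coh.IsCoh F1)
    (h1 : Alg (pull T S) F1) : ∃ F : X.Modules, Coh.IsCoh F ∧ Alg S F := by
  obtain ⟨p1, hp1, hp2⟩ := h1
  let F := pullback (q T J S F1 p1 N) (π T J S N)
  let f : F ⟶ A T F1 := pullback.fst _ _
  let s : F ⟶ S.G N := pullback.snd _ _
  have hsq : IsPullback f s (q T J S F1 p1 N) (π T J S N) := IsPullback.of_hasPullback _ _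
  have hπN := epi_kπ T (S.G N)
  have hf : Epi f := inferInstance
  have hA : Coh.IsCoh (A T F1) :=
    ⟨CohqA.AffPush.isQCoh_push _ F1 hF1.1, CohqA.AffPush.isFT_push _ F1 hF1.1 hF1.2⟩
  have hG : Coh.IsCoh (S.G N) := by
    have h2 : Coh.IsCoh ((Scheme.Modules.pullback (J ^ (N + 1)).subschemeι).obj (S.G N)) :=
      PerfA.CohSerre.isCoh_of_isFinLocFree (S.lf N)
    have h3 : Coh.IsCoh (kq (J ^ (N + 1)) (S.G N)) :=
      ⟨CohqA.AffPush.isQCoh_push _ _ h2.1, CohqA.AffPush.isFT_push _ _ h2.1 h2.2⟩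
    have := isIso_kπ _ (S.killed N)
    exact Sga67.CohBasic.isCoh_of_iso (asIso (kπ (J ^ (N + 1)) (S.G N))).symm h3
  have hB : Coh.IsQCoh (B T J S N) := isQCoh_kq _ (S.qc N)
  have hm : Mono (biprod.lift f s) := hsq.mono_shortComplex'_f
  have hFc : Coh.IsCoh F := by
    have h2 : IsLimit (KernelFork.ofι (biprod.lift f s) _) := hsq.isLimitKernelFork
    have h3 := Sga67.CohBasic.isCoh_kernel (biprod.desc (q T J S F1 p1 N) (-π T J S N))
      (Sga67.CohBasic.isCoh_biprod hA hG) hB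
    exact Sga67.CohBasic.isCoh_of_iso
      ((kernelIsKernel (biprod.desc (q T J S F1 p1 N) (-π T J S N))).conePointUniqueUpToIso h2) h3
  -- the quotient maps for `N ≤ m`
  have hex : ∀ m (h : N ≤ m), ∃ P : F ⟶ S.G m, P ≫ π T J S m = f ≫ q T J S F1 p1 m ∧
      P ≫ S.tr h = s := by
    intro m h
    have hw : (f ≫ q T J S F1 p1 m) ≫ b T J S h = s ≫ π T J S N := by
      rw [Category.assoc, q_b T J S F1 p1 hp1 h]
      exact hsq.w
    exact ⟨(isPullback_levels T J S N hTJ h).lift _ _ hw,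
      (isPullback_levels T J S N hTJ h).lift_fst _ _ hw,
      (isPullback_levels T J S N hTJ h).lift_snd _ _ hw⟩
  choose P hP1 hP2 using hex
  have hPtr : ∀ m m' (h : N ≤ m) (h' : m ≤ m'), P m' (h.trans h') ≫ S.tr h' = P m h := by
    intro m m' h h'
    apply (isPullback_levels T J S N hTJ h).hom_ext
    · rw [Category.assoc, ← sq, ← Category.assoc, hP1, Category.assoc,
        q_b T J S F1 p1 hp1 h', hP1]
    · rw [Category.assoc, Sys.tr_comp, hP2, hP2]
  -- they are quotients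
  have hPq : ∀ m (h : N ≤ m), IsKQuot (J ^ (m + 1)) (P m h) := by
    intro m h
    have hqe := epi_q T J S F1 p1 hF1.1 hp2 m
    have hPe : Epi (P m h) := by
      rw [epi_iff_surjective_up_to_refinements]
      intro W z
      obtain ⟨W', e, he, x, hx⟩ := surjective_up_to_refinements_of_epi (q T J S F1 p1 m)
        (z ≫ π T J S m)
      have hw : x ≫ q T J S F1 p1 N = (e ≫ z ≫ S.tr h) ≫ π T J S N := by
        rw [← q_b T J S F1 p1 hp1 h, ← Category.assoc, ← hx]
        simp only [Category.assoc]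
        rw [sq]
      refine ⟨W', e, he, hsq.lift x (e ≫ z ≫ S.tr h) hw, ?_⟩
      apply (isPullback_levels T J S N hTJ h).hom_ext
      · rw [Category.assoc, Category.assoc, hP1, ← Category.assoc (hsq.lift _ _ _), hsq.lift_fst, hx]
      · rw [Category.assoc, Category.assoc, hP2, hsq.lift_snd]
    refine isKQuot_of_sections (P m h) (S.killed m) fun V y hy => ?_
    have hx : (q T J S F1 p1 m).app V.1 (f.app V.1 y) = 0 := by
      have h2 := congr(($(hP1 m h)).app V.1 y)
      have h3 : (π T J S m).app V.1 ((P m h).app V.1 y) = (q T J S F1 p1 m).app V.1 (f.app V.1 y) := h2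
      rw [← h3, hy, map_zero]
    have hs0 : s.app V.1 y = 0 := by
      have h2 := congr(($(hP2 m h)).app V.1 y)
      have h3 : (S.tr h).app V.1 ((P m h).app V.1 y) = s.app V.1 y := h2
      rw [← h3, hy, map_zero]
    have hx' := q_eq_zero T J S F1 p1 hF1.1 hp2 m V _ hx
    have hfs : Function.Surjective (f.app V.1) := by
      have i1 : F.IsQuasicoherent := hFc.1
      have i2 : (A T F1).IsQuasicoherent := hA.1
      exact QcSect.surjective_app_of_epi f V.2
    have key : ∀ x ∈ (J ^ (m + 1)).ideal V • (⊤ : Submodule Γ(X, V.1) Γ(A T F1, V.1)),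
        ∃ y' ∈ (J ^ (m + 1)).ideal V • (⊤ : Submodule Γ(X, V.1) Γ(F, V.1)),
          f.app V.1 y' = x ∧ s.app V.1 y' = 0 := by
      intro x hx
      refine Submodule.smul_induction_on hx (fun c hc m' _ => ?_) (fun x y hx hy => ?_)
      · obtain ⟨y', rfl⟩ := hfs m'
        refine ⟨c • y', Submodule.smul_mem_smul hc trivial, Scheme.Modules.Hom.app_smul f c y', ?_⟩
        rw [Scheme.Modules.Hom.app_smul]
        have h4 : J ^ (m + 1) ≤ J ^ (N + 1) := pow_le_pow_of_le_one bot_le le_top (by omega)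
        exact S.killed N V c (h4 V hc) _
      · obtain ⟨x', hx1, hx2, hx3⟩ := hx
        obtain ⟨y', hy1, hy2, hy3⟩ := hy
        exact ⟨x' + y', Submodule.add_mem _ hx1 hy1, by rw [map_add, hx2, hy2],
          by rw [map_add, hx3, hy3, add_zero]⟩
    obtain ⟨y', h5, h6, h7⟩ := key _ hx'
    have h8 : y - y' = 0 := eq_zero_of_components hsq V.1 _ (by rw [map_sub, h6, sub_self])
      (by rw [map_sub, h7, hs0, sub_self])
    rw [sub_eq_zero.mp h8]
    exact h5
  refine ⟨F, hFc, fun n => P (max n N) (le_max_right n N) ≫ S.tr (le_max_left n N), fun n => ?_,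
    fun n => ?_⟩
  · have h2 : max n N ≤ max (n + 1) N := max_le_max (Nat.le_succ n) le_rfl
    change (P (max (n + 1) N) _ ≫ S.tr _) ≫ S.t n = P (max n N) _ ≫ S.tr _
    rw [← hPtr (max n N) (max (n + 1) N) (le_max_right n N) h2, ← Sys.tr_succ, Category.assoc,
      Category.assoc, Sys.tr_comp, Sys.tr_comp]
  · refine isKQuot_comp (hPq _ _) (S.isKQuot_tr _) ?_
    exact pow_le_pow_of_le_one bot_le le_top (by have := le_max_left n N; omega)

end Groth.Agent.Sga2lef.H78.Torsion
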